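import Mathlib
import Cfsg.Agent.Base
import Cfsg.Agent.Lib.GNT.Local
import Cfsg.Agent.Lib.Fusion.Control

/-! The transfer theorem of Glauberman and Niles for `p` odd: `C(Z(S))` and `N(K(S))` control
transfer (helper90). -/

set_option autoImplicit false

namespace H90.GNT

open Cfsg Cfsg.FusionSystem H90 Equiv H93 H92
open scoped commutatorElement

universe u

/-- The functor `K` on abstract groups. -/
noncomputable def kw (p : ℕ) (Q : Type u) [Group Q] : Subgroup Q := kk p ⊤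

variable {p : ℕ}

theorem kw_isCharPFunctor : IsCharPFunctor.{u} p (kw p) :=
  ⟨fun _ _ _ _ _ => kk_ne_bot top_ne_bot, fun Q R _ _ _ _ φ => by
    have := Finite.of_equiv Q φ.toEquiv
    rw [kw, map_kk φ.injective, Subgroup.map_top_of_surjective _ φ.surjective, kw]⟩

theorem iF_kw {G : Type u} [Group G] [Finite G] (P : Subgroup G) :
    inducedFunctor (kw p) P = kk p P := by
  rw [inducedFunctor, kw, map_kk P.subtype_injective, H24.map_top_subtype]

variable {Ω : Type u} [Group Ω] {S : Subgroup Ω} {F : FusionSystem S}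

/-- The focal subgroup of `C_F(Z)` lies in `K`. -/
def CFoc (F : FusionSystem S) (Z K : Subgroup Ω) : Prop :=
  ∀ P f, CMap F Z P f → ∀ x ∈ P, x⁻¹ * f x ∈ K

variable [Finite S] [Fact p.Prime]

theorem focal_le_gn (hp2 : p ≠ 2) (hS : IsPGroup p S) (hF : F.IsSaturated p) {K : Subgroup Ω}
    (hK : NFoc F (inducedFunctor (kw p) S) K) (hC : CFoc F (centralizerIn S S) K) :
    F.focalSubgroup ≤ K := by
  have hW := kw_isCharPFunctor.{u} (p := p)
  revert hS hF K
  refine sat_induction (C := fun Ω _ S F => IsPGroup p S → F.IsSaturated p → ∀ {K : Subgroup Ω},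
    NFoc F (inducedFunctor (kw p) S) K → CFoc F (centralizerIn S S) K → F.focalSubgroup ≤ K)
    (fun Ω _ S _ F ih ihq hS hF K₀ hK₀ hC₀ => ?_) Ω S F
  obtain ⟨K, hK, hC, hKF, hKK⟩ : ∃ K, NFoc F (inducedFunctor (kw p) S) K ∧
      CFoc F (centralizerIn S S) K ∧ K ≤ F.focalSubgroup ∧ K ≤ K₀ :=
    ⟨K₀ ⊓ F.focalSubgroup, fun P f hf x hx => ⟨hK₀ P f hf x hx, hf.map.mem_focal hx⟩,
      fun P f hf x hx => ⟨hC₀ P f hf x hx, hf.map.mem_focal hx⟩, inf_le_right, inf_le_left⟩
  refine le_trans ?_ hKK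
  by_cases hb : S = ⊥
  · exact (focalSubgroup_le F).trans (hb.le.trans bot_le)
  have hn := iF_le_normalizer hW hS
  have hK' : ∀ g ∈ S, ∀ x ∈ S, x⁻¹ * (g * x * g⁻¹) ∈ K := fun g hg => hK S _
    (nmap_of_map (map_cj F le_rfl hg) le_rfl (iF_le _ S) hn fun x hx =>
      (Subgroup.mem_normalizer_iff.1 (hn hg) x).1 hx)
  have hSS : ⁅S, S⁆ ≤ K := H91.commutator_le_of_forall fun a ha b hb => by
    simpa [mul_assoc] using K.inv_mem (hK' a ha b⁻¹ (S.inv_mem hb))
  have h0 : NSub F (inducedFunctor (kw p) S) (modSys F K hK') := fun P f hf =>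
    map_modSys.2 ⟨hf.map, hK P f hf⟩
  have ih' : ∀ X (hX : F.IsFullyNormalized X), ¬ X ≤ F.core →
      NSub (nsys F X hX.1) (inducedFunctor (kw p) (normalizerIn S X)) (modSys F K hK') →
      NSub F X (modSys F K hK') := fun X hX hXc h P f hf => map_modSys.2 ⟨hf.map, fun x hx =>
    ih _ _ (nsys_sub F hX.1) (not_sub_nsys hX.1 hXc) (hS.to_le (normalizerIn_le S X))
      (isSaturated_nsys hS hF hX) (fun P f hf => (map_modSys.1 (h P f hf)).2)
      (fun P f hf => hC P f (cmap_anti (centralizerIn_top_le hX.1)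
        (cmap_of_sub (nsys_sub F hX.1) hf))) ((map_nsys.2 hf).mem_focal hx)⟩
  have ih'' : ∀ X, X ≤ S → S ≤ Subgroup.normalizer (X : Set Ω) → ¬ X ≤ F.core → NFoc F X K :=
    fun X hX hn hXc P f hf => (map_modSys.1 (ih' X (isFullyNormalized_of_le_normalizer hX hn) hXc
      (NSub.of_sub (by rwa [normalizerIn_eq hn]) (nsys_sub F hX)) P f hf)).2
  by_cases hc : F.core = ⊥
  · exact focalSubgroup_le_iff.2 fun P f hf => (map_modSys.1 (hf.of_sub (sub_of_push hS hF
      (not_center_le_core hS hb hc) fun X hX hXc h =>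
        ih' X hX hXc (nSub_iF hW hS h0 hX.1 (iF_not_le_core hW hS hc hX.1 hXc) h)))).2
  have hQ := H91.isNormal_core F
  have hKS := hKF.trans (focalSubgroup_le F)
  suffices h : F.focalSubgroup ⊓ F.core ≤ K by
    by_cases hSQ : S ≤ F.core
    · exact (le_inf le_rfl ((focalSubgroup_le F).trans hSQ)).trans h
    obtain ⟨Ω', _, S', F', θ, hq, hθ⟩ := exists_quot (H91.IsNormal.stronglyClosed' hQ)
    have := hq.finite
    have hS' := hq.isPGroup hS
    have hne := quot_ne_bot hq (hθ ▸ hSQ)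
    have key : ∀ X ≤ S', S' ≤ Subgroup.normalizer (X : Set Ω') → X ≠ ⊥ →
        NFoc F' X (imageAlong θ K) := fun X a1 a2 a3 P f hf y hy => by
      obtain ⟨σ, hσ, e⟩ := quot_nmap_lift hq hf
      obtain ⟨x, hx, rfl⟩ := hq.exists_mem_preimage hf.map.le hy
      have h2 := ih'' _ (H91.preimageAlong_le _ _) (quot_le_normalizer hq a2)
        (hθ ▸ quot_not_le hq a1 a3) _ _ hσ x hx
      rw [e x hx, ← H91.ex_inv_mul θ (hσ.map.le hx) (hσ.map.mem hx)]
      exact H91.ex_mem_imageAlong h2 (hKS h2)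
    have h1 : F'.focalSubgroup ≤ imageAlong θ K := ihq _ _ F' (quot_card_lt hq (hθ ▸ hc)) hS'
      (hq.isSaturated hS hF) (key _ (iF_le _ S') (iF_le_normalizer hW hS') (iF_ne_bot hW hS' hne))
      fun P f hf => key _ (centralizerIn_le S' S') ((Subgroup.le_centralizer_iff.1 inf_le_right).trans
        (Subgroup.centralizer_le_normalizer _)) (centralizerIn_self_ne_bot hS' hne) P f hf.nmap
    intro x hx
    obtain ⟨k, hk, e⟩ := (H91.mem_imageAlong' hKS).1
      (h1 (H91.mem_preimageAlong.1 (quot_focal_le hS hF hq hx)).2)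
    rw [H91.ex_eq_iff (hKS hk) (focalSubgroup_le F hx), hθ] at e
    simpa using K.mul_mem hk (h ⟨Subgroup.mul_mem _ (Subgroup.inv_mem _ (hKF hk)) hx, e⟩)
  refine fun x hx => mem_of_mem_focal hS hF hSS hx.1 fun z hz f hf => ?_
  have hz' := Subgroup.zpowers_le.2 hx.2 hz
  by_cases hR : F.core ⊔ centralizerIn S F.core ≤ F.core
  swap
  · have hsc := stronglyClosed_core_sup hS hF hQ
    obtain ⟨τ, hτ, e⟩ := exists_ext_core_sup' hS hF hQ hf
    rw [← e z (Subgroup.mem_zpowers z) hz']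
    exact ih'' _ hsc.1 (le_normalizer_of_stronglyClosed hsc) hR _ _ (nmap_of_iso hτ) z
      (Subgroup.mem_sup_left hz')
  obtain ⟨G, _, ι, hG⟩ := exists_model hS (isConstrained_of_le hF hR)
  have := hG.1
  obtain ⟨T, hT⟩ := hG.2.2.1
  have hι := hG.2.1.1
  have key : ∀ {b y : Ω} {g : G}, b ∈ S → y ∈ S → ext ι y = g * ext ι b * g⁻¹ →
      (b⁻¹ * y ∈ K ↔ (ext ι b)⁻¹ * (g * ext ι b * g⁻¹) ∈ imageAlong ι K) := fun hb hy e => by
    rw [← e, ← ext_inv hb, ← ext_mul (S.inv_mem hb) hy,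
      ext_mem_imageAlong_iff hι hKS (S.mul_mem (S.inv_mem hb) hy)]
  have hcj : ∀ {b : Ω} {g : G}, b ∈ S → g * ext ι b * g⁻¹ ∈ ι.range →
      ∀ x ∈ Subgroup.zpowers b, g * ext ι x * g⁻¹ ∈ ι.range := fun hb h =>
    (comap_conj_le_range (Subgroup.zpowers_le.2 hb)).2 (Subgroup.zpowers_le.2
      (mem_preimageAlong.2 ⟨hb, h⟩))
  have h1 := loc_main (D := imageAlong ι K) hp2 _ ⊤ ι.range le_rfl (hT ▸ H69.isSylowIn_top T)
    (H70.charP_top_iff.2 hG.2.2.2) (H91.commutator_le_of_forall fun a ha' b hb' => by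
      obtain ⟨a, ha, rfl⟩ := mem_range_iff_ext.1 ha'
      obtain ⟨b, hb, rfl⟩ := mem_range_iff_ext.1 hb'
      rw [← ext_conj ha hb, ← ext_inv hb, ← ext_mul (S.mul_mem (S.mul_mem ha hb) (S.inv_mem ha))
        (S.inv_mem hb)]
      exact ext_mem_imageAlong hKS (hSS (Subgroup.commutator_mem_commutator ha hb)))
    (fun g hg a ha h => by
      obtain ⟨b, hb, rfl⟩ := mem_range_iff_ext.1 ha
      have hP : Subgroup.zpowers b ≤ S := Subgroup.zpowers_le.2 hb
      obtain ⟨σ, hσ, e⟩ := cmap_of_real hG.2.1 (centralizerIn_le S S)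
        (le_inf hP (hP.trans (Subgroup.le_centralizer_iff.1 inf_le_right))) (g := g)
        (by rw [imageAlong_center hι]; exact hg.2) (hcj hb h)
      have h3 := Subgroup.mem_zpowers b
      exact (key hb (hσ.map.mem h3) (e b h3)).1 (hC _ _ hσ b h3))
    (fun g hg a ha h => by
      obtain ⟨b, hb, rfl⟩ := mem_range_iff_ext.1 ha
      have hP : Subgroup.zpowers b ≤ S := Subgroup.zpowers_le.2 hb
      obtain ⟨σ, hσ, e⟩ := nmap_of_real hG.2.1 (iF_le _ S) (le_inf hP (hP.trans hn)) (g := g)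
        (by rw [iF_image hW hS hι, iF_kw]; exact hg.2) (hcj hb h)
      have h3 := Subgroup.mem_zpowers b
      exact (key hb (hσ.map.mem h3) (e b h3)).1 (hK _ _ hσ b h3))
  obtain ⟨-, -, g, e⟩ := (map_iff_real hG.2.1).1 hf
  have h3 := Subgroup.mem_zpowers z
  refine (key (hQ.1 hz') (hf.mem h3) (e z h3)).2 ((h1 (Subgroup.mem_top g)).2 _ ?_)
  rw [H70.pCoreOf_top, ← IsModel.imageAlong_core hG]
  exact ext_mem_imageAlong hQ.1 hz'

/-- The group form. -/
theorem gn_transfer (hp2 : p ≠ 2) {G : Type u} [Group G] [Finite G] (P : Sylow p G)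
    {D : Subgroup G}
    (h1 : Fus P D (Subgroup.centralizer ((P ⊓ Subgroup.centralizer (P : Set G) : Subgroup G) : Set G)))
    (h2 : Fus P D (Subgroup.normalizer (kk p (P : Subgroup G) : Set G))) :
    commutator G ⊓ P ≤ D := by
  have h3 := focal_le_gn hp2 P.isPGroup' (isSaturated_groupFusionSystem P) (K := D)
    (fun R f hf x hx => by
      obtain ⟨-, -, k, hk, e1, e2⟩ := hf
      obtain ⟨a1, a2, g, e⟩ := map_group.1 hk
      have hx' : x ∈ R ⊔ inducedFunctor (kw p) (P : Subgroup G) := Subgroup.mem_sup_left hx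
      rw [← e1 x hx, e x hx']
      refine h2 g (H24.mem_normalizer_of_conj_mem fun y hy => ?_) x (a1 hx') (e x hx' ▸ a2 x hx')
      rw [← iF_kw] at hy ⊢
      rw [← e y (Subgroup.mem_sup_right hy), ← e2]
      exact mem_im_of_mem k hy)
    (fun R f hf x hx => by
      obtain ⟨-, -, k, hk, e1, e2⟩ := hf
      obtain ⟨a1, a2, g, e⟩ := map_group.1 hk
      have hx' : x ∈ R ⊔ centralizerIn P P := Subgroup.mem_sup_left hx
      rw [← e1 x hx, e x hx']
      refine h1 g (fun y hy => ?_) x (a1 hx') (e x hx' ▸ a2 x hx')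
      rw [eq_comm, ← mul_inv_eq_iff_eq_mul, ← e y (Subgroup.mem_sup_right hy), e2 y hy])
  refine H4.commutator_inf_sylow_le_of_fusion P fun x hx u hu => ?_
  have h4 : Map (groupFusionSystem (P : Subgroup G)) (Subgroup.zpowers x) fun y => u * y * u⁻¹ :=
    map_group.2 ⟨Subgroup.zpowers_le.2 hx, fun y hy => by
      obtain ⟨n, rfl⟩ := Subgroup.mem_zpowers_iff.1 hy
      rw [← conj_zpow]
      exact Subgroup.zpow_mem _ hu n, u, fun _ _ => rfl⟩
  simpa [commutatorElement_def, mul_assoc] using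
    D.inv_mem (h3 (h4.mem_focal (Subgroup.inv_mem _ (Subgroup.mem_zpowers x))))

omit [Finite S] [Fact p.Prime] in
theorem fus_of_le {G : Type*} [Group G] {P H D : Subgroup G} (h : P ≤ H) (hD : P ⊓ ⁅H, H⁆ ≤ D) :
    Fus P D H := fun g hg x hx hx' => hD ⟨P.mul_mem (P.inv_mem hx) hx', by
  simpa [commutatorElement_def, mul_assoc] using
    Subgroup.commutator_mem_commutator (H.inv_mem (h hx)) hg⟩

theorem gn_transfer' (hp2 : p ≠ 2) {G : Type u} [Group G] [Finite G] (P : Sylow p G) :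
    (P : Subgroup G) ⊓ commutator G ≤ (P : Subgroup G) ⊓
      ⁅Subgroup.centralizer ((P ⊓ Subgroup.centralizer (P : Set G) : Subgroup G) : Set G),
        Subgroup.centralizer ((P ⊓ Subgroup.centralizer (P : Set G) : Subgroup G) : Set G)⁆ ⊔
      (P : Subgroup G) ⊓ ⁅Subgroup.normalizer (kk p (P : Subgroup G) : Set G),
        Subgroup.normalizer (kk p (P : Subgroup G) : Set G)⁆ :=
  (inf_comm _ _).le.trans (gn_transfer hp2 P
    (fus_of_le (Subgroup.le_centralizer_iff.1 inf_le_right) le_sup_left)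
    (fus_of_le (Subgroup.le_normalizer.trans ((normalizer_le_jb _).trans (normalizer_jb_le _)))
      le_sup_right))

omit [Finite S] [Fact p.Prime] in
theorem kw_char (Q : Type u) [Group Q] [Finite Q] : (kw p Q).Characteristic :=
  H68.Push.char_of_map fun φ hφ e => by rw [kw, map_kk hφ, e]

theorem main_eq_defs : True := by
  have := @kw.eq_1.{0}
  have := @CFoc.eq_1.{0}
  trivial

end H90.GNT
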